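import Groth.Agent.Sga5.H844.FinLen
import Groth.Agent.Etcore.DegZero
import Groth.Agent.MiscA.CurveH1E
import Groth.Agent.S1604
import Groth.Agent.Dix.IdealModCartier
import Mathlib.AlgebraicGeometry.FunctionField

/-!
# Ideal sheaves on a smooth proper curve over an algebraically closed field

* `eq_bot_of_stalkIdeal_eq_bot`: an ideal sheaf on an integral scheme with a zero stalk is zero;
* `isEff_of_ne_bot`: a nonzero ideal sheaf on a smooth proper curve is effective Cartier;
* `dg_idealMod`: the degree of the class of `I` is `- ∑_x length (O_x / I_x)`;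
* `finite_support`.
-/

set_option autoImplicit false
universe u v
open CategoryTheory CategoryTheory.Limits AlgebraicGeometry Opposite TopologicalSpace IsLocalRing

namespace Groth.Agent.Sga5.H844.CurveDiv

open Groth.Agent.Divis.CartierBasic Groth.Agent.Divis.CartierStalk Groth.Agent.Dix.InterNum
  Groth.Agent.Dix.IdealModCartier Groth.Agent.Grpsch Groth.Agent.Etcore

variable {X : Scheme.{u}}

/-- An ideal sheaf on an integral scheme with a zero stalk is zero. -/
theorem eq_bot_of_stalkIdeal_eq_bot [IsIntegral X] (I : X.IdealSheafData) (x : X)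
    (h : stalkIdeal I x = ⊥) : I = ⊥ := by
  obtain ⟨U, hU⟩ := exists_affine x
  have h1 : I.ideal U = ⊥ := by
    rw [stalkIdeal_eq I U hU] at h
    exact (Ideal.map_eq_bot_iff_of_injective (germ_injective_of_isIntegral X x hU)).1 h
  ext V : 2
  rw [Scheme.IdealSheafData.ideal_bot, Pi.bot_apply]
  by_cases hV : Nonempty V.1
  · obtain ⟨v⟩ := hV
    have h2 : (U.1 ⊓ V.1 : X.Opens) ≠ ⊥ := by
      intro h3
      have h4 := (PreirreducibleSpace.isPreirreducible_univ (X := X)) U.1 V.1 U.1.2 V.1.2 ⟨x, trivial, hU⟩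
        ⟨v.1, trivial, v.2⟩
      obtain ⟨z, -, hz⟩ := h4
      have h5 : z ∈ (U.1 ⊓ V.1 : X.Opens) := hz
      rw [h3] at h5
      exact h5
    obtain ⟨z, hz⟩ : ∃ z, z ∈ (U.1 ⊓ V.1 : X.Opens) := by
      by_contra h6
      push Not at h6
      exact h2 (le_bot_iff.1 fun z hz => (h6 z hz).elim)
    obtain ⟨W, hzW, hWU, hWV⟩ := exists_affine_le (x := z) U.1 V.1 hz.1 hz.2
    have h7 : I.ideal W = ⊥ := by
      rw [← I.map_ideal (U := W) (V := U) hWU, h1, Ideal.map_bot]
    have h8 := I.map_ideal (U := W) (V := V) hWV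
    rw [h7] at h8
    have h9 : Nonempty W.1 := ⟨⟨z, hzW⟩⟩
    exact (Ideal.map_eq_bot_iff_of_injective (map_injective_of_isIntegral X (homOfLE hWV))).1 h8
  · have h2 : V.1 = ⊥ := by
      rw [← le_bot_iff]
      intro v hv
      exact (hV ⟨v, hv⟩).elim
    have h3 : Subsingleton Γ(X, V.1) := by
      rw [h2]
      infer_instance
    exact Subsingleton.elim _ _

section curve

variable {k : Type u} [Field k] [PerfectField k] [X.Over (Spec (CommRingCat.of k))]
  (hX : Curve.IsSmoothProperCurve k X (X ↘ Spec (CommRingCat.of k)))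

include hX in
/-- A nonzero ideal sheaf on a smooth proper curve is effective Cartier. -/
theorem isEff_of_ne_bot (I : X.IdealSheafData) (hI : I ≠ ⊥) : BlowUp.IsEffCartierIdeal I := by
  have hp := hX.1
  have hint : IsIntegral X := hX.2.2.1
  have hN : IsNoetherian X := MiscA.CurveH1E.isNoetherian_of_isSmoothProperCurve _ hX
  refine isEffCartierIdeal_of_stalkIdeal I fun x hx => ?_
  have h0 : stalkIdeal I x ≠ ⊥ := fun h => hI (eq_bot_of_stalkIdeal_eq_bot I x h)
  have hpr : (stalkIdeal I x).IsPrincipal := by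
    by_cases hgen : x = genericPoint X
    · subst hgen
      have hf : IsField (X.presheaf.stalk (genericPoint X)) := Field.toIsField X.functionField
      let _ := hf.toField
      rcases Ideal.eq_bot_or_top (stalkIdeal I (genericPoint X)) with h | h
      · rw [h]; infer_instance
      · rw [h]; infer_instance
    · have := MiscA.CurveH1E.isDiscreteValuationRing_stalk _ hX x hgen
      exact IsPrincipalIdealRing.principal _
  obtain ⟨g, hg⟩ := hpr
  refine ⟨g, mem_nonZeroDivisors_of_ne_zero fun h => h0 ?_, hg⟩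
  rw [hg, h]
  exact Ideal.span_singleton_eq_bot.2 rfl

end curve

section deg

variable {k : Type u} [Field k] [IsAlgClosed k] [X.Over (Spec (CommRingCat.of k))]
  (hX : Curve.IsSmoothProperCurve k X (X ↘ Spec (CommRingCat.of k)))

include hX in
theorem isFinite_subscheme (I : X.IdealSheafData) (hI : BlowUp.IsEffCartierIdeal I) :
    IsFinite (I.subschemeι ≫ (X ↘ Spec (CommRingCat.of k))) := by
  have hp := hX.1
  obtain ⟨M, hM, ⟨e⟩⟩ := PicGrp.exists_inverse (isInvertible_idealMod hI)
  exact (S1604.result k X hX.2.2.2.le I hI M hM ⟨Ega2.Tens.swap M _ ≪≫ e⟩ 1 (Coh.structureModule X)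
    (Ega2.QCohLocal.isFinLocFreeOfRank_one_iff.mpr Fdesc.LocGen.isInvertible_structureModule)).1

include hX in
theorem finite_support (I : X.IdealSheafData) (hI : I ≠ ⊥) : (I.support : Set X).Finite := by
  have h1 := isFinite_subscheme hX I (isEff_of_ne_bot hX I hI)
  rw [← Scheme.IdealSheafData.range_subschemeι]
  have h2 : Finite I.subscheme := by
    have h3 : (Set.univ : Set I.subscheme).Finite := by
      have := (I.subschemeι ≫ (X ↘ Spec (CommRingCat.of k))).finite_preimage (s := Set.univ) Set.finite_univ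
      simpa using this
    exact Set.finite_univ_iff.1 h3
  exact Set.finite_range _

include hX in
theorem dg_idealMod (I : X.IdealSheafData) (hI : BlowUp.IsEffCartierIdeal I) :
    DegZero.dg k X (PicGrp.mk (ClSub.idealMod I) (isInvertible_idealMod hI)) =
      - ((∑ᶠ x : X, (Module.length (X.presheaf.stalk x) (X.presheaf.stalk x ⧸ stalkIdeal I x)).toNat : ℕ) : ℤ) := by
  have hp := hX.1
  have hint : IsIntegral X := hX.2.2.1
  have hfin := isFinite_subscheme hX I hI
  obtain ⟨M, hM, ⟨e⟩⟩ := PicGrp.exists_inverse (isInvertible_idealMod hI)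
  have hinv : ClSub.IsInverseOf M (ClSub.idealMod I) := ⟨Ega2.Tens.swap M _ ≪≫ e⟩
  have h1 := deg_of_effCartier k X hX.2.2.2 I hI M hinv
  have h2 : DegZero.dg k X (PicGrp.mk M hM) = Curv2.deg k X M 1 := by
    rw [DegZero.dg_mk, DegZero.eulerCharLE_eq k X hX.2.2.2, DegZero.eulerCharLE_eq k X hX.2.2.2, Curv2.deg]
    push_cast
    ring
  have h3 : PicGrp.mk (ClSub.idealMod I) (isInvertible_idealMod hI) = (PicGrp.mk M hM)⁻¹ := by
    rw [eq_inv_iff_mul_eq_one, PicGrp.mk_mul_mk, PicGrp.mk_eq_one_iff]
    exact ⟨e⟩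
  rw [h3, DegZero.dg_inv k X hX.2.2.2, h2, h1, FinLen.finrank_quotMod_eq]

end deg

end Groth.Agent.Sga5.H844.CurveDiv
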