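import Groth.Agent.Sga5.H844.Fix
import Groth.Agent.Sga5.H833.Phi
import Groth.Agent.Sga5.H854.RH
import Groth.Agent.Sga5.H841.RamGeo2
import Groth.Agent.Picfga.CurvePts

/-!
# The curve side of the Grothendieck–Ogg–Shafarevich formula (S4182)

The inputs of `H841.Gos.gos` about the curve `C'`: the traces on `H¹(C', ℤ/ℓ)` and the
Riemann–Hurwitz input for an auxiliary prime.
-/

set_option autoImplicit false
universe u
open CategoryTheory CategoryTheory.Limits AlgebraicGeometry Opposite Abelian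

namespace Groth.Agent.Sga5.H844.CurveSide

open Groth.Agent.Sga5.H841 Groth.Agent.Sga5.H841.Iface Groth.Agent.Sga5.H833.RamStalk
  Groth.Agent.Sga5.H833.ZModSeq Groth.Agent.Sga5.H833.HasTr Groth.Agent.Sga5.H833.HConst
  Groth.Agent.Sga5.H844.G3 Groth.Agent.Sga5.H854

/-- An auxiliary prime. -/
theorem exists_prime (k : Type u) [Field k] (N : ℕ) (hN : N ≠ 0) :
    ∃ p : ℕ, p.Prime ∧ ¬ p ∣ N ∧ (p : k) ≠ 0 := by
  obtain ⟨p, hp, hpr⟩ := Nat.exists_infinite_primes (N + ringChar k + 1)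
  refine ⟨p, hpr, fun h => ?_, fun h => ?_⟩
  · have := Nat.le_of_dvd (Nat.pos_of_ne_zero hN) h
    omega
  · have h1 := (ringChar.spec k p).1 h
    rcases (Nat.dvd_prime hpr).1 h1 with h2 | h2
    · exact CharP.ringChar_ne_one h2
    · omega

variable {k : Type u} [Field k] [IsAlgClosed k] {C : Scheme.{u}} (f : C ⟶ Spec (CommRingCat.of k))
  [ConnectedSpace C] [IsProper f] [SmoothOfRelativeDimension 1 f]
  {U : Scheme.{u}} (j : U ⟶ C) [IsOpenImmersion j] [Nonempty U]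
  {C' : Scheme.{u}} [ConnectedSpace C'] (hC' : ∀ y : C', IsRegularLocalRing (C'.presheaf.stalk y))
  (q : C' ⟶ C) [IsFinite q] [Surjective q]
  {G : Type} [Group G] [Finite G] (ρ : G →* Aut C') (hρ : ∀ g : G, (ρ g).hom ≫ q = q)
  (hqet : EtCoh.etaleMP (pullback.snd q j))
  (hfree : ∀ y : C', IsClosed ({y} : Set C') → q.base y ∈ Set.range j.base →
    ∀ g : G, (ρ g).hom.base y = y → g = 1)
  (htrans : ∀ y₁ y₂ : C', IsClosed ({y₁} : Set C') → IsClosed ({y₂} : Set C') →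
    q.base y₁ ∈ Set.range j.base → q.base y₁ = q.base y₂ → ∃ g : G, (ρ g).hom.base y₁ = y₂)

include f j hC' hρ hfree in
omit [Finite G] in
/-- **The traces.** -/
theorem exists_trace [IsIntegral C'] : ∃ g' : ℕ, ∀ (Y : Type) [Fintype Y] [MulAction G Y]
    (D : RamData G Y),
    (∀ g : G, g ≠ 1 → ∀ E : {z : C' // z ≠ genericPoint C'} →₀ ℤ,
      (∀ z : {z : C' // z ≠ genericPoint C'}, (ρ g).hom.base z.1 ≠ z.1 → E z = 0) →
      (∀ (z : {z : C' // z ≠ genericPoint C'}) (hz : (ρ g).hom.base z.1 = z.1) (m : ℕ),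
        Ideal.span (Set.range fun r : C'.presheaf.stalk z.1 => (stk ρ g hz).hom r - r) =
          IsLocalRing.maximalIdeal (C'.presheaf.stalk z.1) ^ m → E z = m) →
      (E.sum fun _ m => m) = ∑ y : Y, (D.idx y g : ℤ)) →
    ∀ (ℓ : ℕ), ℓ.Prime → (ℓ : k) ≠ 0 →
      HasTrace ℓ (act ρ (zm.{u} ℓ) 1) (tf D g') ∧ Finite (HC C' (zm.{u} ℓ) 1) := by
  have hcurve := H854.Geo.isSmoothProperCurve f hC' q
  obtain ⟨hprop, hsm, hint, hdim⟩ := id hcurve
  have hsm1 : SmoothOfRelativeDimension 1 (q ≫ f) :=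
    Groth.Agent.Picfga.CurveRelDim.smoothOfRelativeDimension_of_topologicalKrullDim_eq k C' (q ≫ f) 1
      (by simpa using hdim)
  have hρ' : ∀ g : G, (ρ g).hom ≫ (q ≫ f) = q ≫ f := fun g => by rw [← Category.assoc, hρ]
  obtain ⟨g', hg'⟩ := H833.Phi.exists_equiv_H1 (q ≫ f) hcurve
  refine ⟨g', fun Y _ _ D hD ℓ hℓ hk => ⟨?_, ?_⟩⟩
  · refine hasTrace_of ρ D hD g' ℓ hℓ.ne_zero (fun i => ?_) fun i hi g hg => ?_
    · refine hg' (ℓ ^ i) (Nat.one_le_pow _ _ hℓ.pos) ?_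
      rw [Nat.cast_pow]
      exact pow_ne_zero _ hk
    · refine Fix.fixFormula (q ≫ f) (n := ℓ ^ i) ?_ (ρ g).hom (hρ' g) fun h => hg ?_
      · rw [Nat.cast_pow]
        exact pow_ne_zero _ hk
      · exact RamGeo2.eq_one_of_hom_eq_id f j q ρ hfree g h
  · exact H833.Phi.finite_H1 (q ≫ f) hcurve ℓ hℓ.one_le hk

include f j hρ hqet htrans in
omit [ConnectedSpace C'] in
/-- The group acts transitively on the fibres. -/
theorem exists_apply_eq [IsIntegral C'] (y₁ y₂ : C') (h : q y₁ = q y₂) :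
    ∃ g : G, (ρ g).hom y₁ = y₂ := by
  obtain ⟨-, hsm, hint, hdim⟩ := Groth.Agent.Sga4B.RelCurveFibre.isSmoothProperCurve f
  exact Trans.exists_apply_eq f q j ρ hρ hqet (fun x => by
      have := Groth.Agent.Picfga.CurvePts.valuationRing_stalk f hdim.le x
      infer_instance) htrans _ _ h

end Groth.Agent.Sga5.H844.CurveSide

namespace Groth.Agent.Sga5.H844.CurveSide

open Groth.Agent.Sga5.H841 Groth.Agent.Sga5.H841.Iface Groth.Agent.Sga5.H833.RamStalk
  Groth.Agent.Sga5.H833.ZModSeq Groth.Agent.Sga5.H833.HasTr Groth.Agent.Sga5.H833.HConst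
  Groth.Agent.Sga5.H844.G3 Groth.Agent.Sga5.H854

section

variable {k : Type u} [Field k] [IsAlgClosed k] {C : Scheme.{u}}
  [C.Over (Spec (CommRingCat.of k))] [ConnectedSpace C] [IsProper (C ↘ Spec (CommRingCat.of k))]
  [SmoothOfRelativeDimension 1 (C ↘ Spec (CommRingCat.of k))]
  {U : Scheme.{u}} (j : U ⟶ C) [IsOpenImmersion j] [Nonempty U]
  {C' : Scheme.{u}} [ConnectedSpace C']
  (q : C' ⟶ C) [IsFinite q] [Surjective q]
  {G : Type} [Group G] [Finite G] (ρ : G →* Aut C') (hρ : ∀ g : G, (ρ g).hom ≫ q = q)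
  (hqet : EtCoh.etaleMP (pullback.snd q j))
  (htrans : ∀ y₁ y₂ : C', IsClosed ({y₁} : Set C') → IsClosed ({y₂} : Set C') →
    q.base y₁ ∈ Set.range j.base → q.base y₁ = q.base y₂ → ∃ g : G, (ρ g).hom.base y₁ = y₂)

include j hρ hqet htrans in
omit [ConnectedSpace C'] in
/-- **The Riemann–Hurwitz input.** -/
theorem exists_prime_card [IsIntegral C'] : ∃ p : ℕ, p.Prime ∧ ¬ p ∣ Nat.card G ∧ (p : k) ≠ 0 ∧
    Nat.card (inv (act ρ (zm.{u} p) 1) Set.univ) = p ^ (2 * Curv2.genus k C) := by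
  obtain ⟨p, hp, hpG, hpk⟩ := exists_prime k (Nat.card G) Nat.card_pos.ne'
  refine ⟨p, hp, hpG, hpk, RH.card_inv_H1 q ρ hρ (fun y₁ y₂ h => ?_) p hp.one_le hpk
    ((Nat.Prime.coprime_iff_not_dvd hp).2 hpG)⟩
  exact exists_apply_eq (C ↘ Spec (CommRingCat.of k)) j q ρ hρ hqet htrans y₁ y₂ h

end

end Groth.Agent.Sga5.H844.CurveSide
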